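import Cfsg.Agent.H403.O1.GBound

/-!
# The size estimate, low half (helper117, obstacle O1 of S4766)
-/

set_option autoImplicit false

namespace Cfsg.Agent.H117.O1

open Nat Cfsg.Agent.H403.O1

namespace SL

theorem choose_mono_half {M k j : ℕ} (hkj : k ≤ j) (hj : 2 * j ≤ M) : M.choose k ≤ M.choose j := by
  induction j, hkj using Nat.le_induction with
  | base => exact le_rfl
  | succ j hkj ih =>
    refine (ih (by omega)).trans (Nat.choose_le_succ_of_lt_half_left (by omega))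

theorem choose_ge {M k j : ℕ} (hkj : k ≤ j) (hj : j + k ≤ M) : M.choose k ≤ M.choose j := by
  by_cases h : 2 * j ≤ M
  · exact choose_mono_half hkj h
  · rw [← Nat.choose_symm (show j ≤ M by omega)]
    exact choose_mono_half (by omega) (by omega)

theorem five_pow_le (k : ℕ) : 5 ^ k ≤ (5 * k).choose k := by
  induction k with
  | zero => simp
  | succ k ih =>
    have h := Nat.add_one_mul_choose_eq (5 * k + 4) k
    have h1 : (5 * k + 4 + 1).choose (k + 1) = 5 * (5 * k + 4).choose k := by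
      have : (k + 1) * (5 * k + 4 + 1).choose (k + 1) = (k + 1) * (5 * (5 * k + 4).choose k) := by
        linarith [h]
      exact Nat.eq_of_mul_eq_mul_left (Nat.succ_pos k) this
    have h2 : (5 * k).choose k ≤ (5 * k + 4).choose k := Nat.choose_le_choose k (by omega)
    rw [show 5 * (k + 1) = 5 * k + 4 + 1 by ring, h1, pow_succ]
    linarith

/-- the reduction -/
theorem reduce {M a b i j g1 g2 G1 G2 : ℕ} (ha : a + i = M) (hb : b + j = M)
    (h1 : g1 ≤ G1 * a !) (h2 : g2 ≤ G2 * b !)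
    (H : M ^ 2 * ((i + j + 1) * (G1 * G2 * (i + j).choose i)) < 2 * (2 * M - 1) * (M.choose i * M.choose j)) :
    M ^ 2 * ((i + j + 1) * (g1 * g2 * (i + j)!)) < 2 * (2 * M - 1) * (M !) ^ 2 := by
  have e1 : M.choose i * i ! * a ! = M ! := by
    rw [← Nat.choose_mul_factorial_mul_factorial (show i ≤ M by omega)]
    rw [show M - i = a by omega]
  have e2 : M.choose j * j ! * b ! = M ! := by
    rw [← Nat.choose_mul_factorial_mul_factorial (show j ≤ M by omega)]
    rw [show M - j = b by omega]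
  have e3 : (i + j).choose i * i ! * j ! = (i + j)! := by
    have := Nat.choose_mul_factorial_mul_factorial (show i ≤ i + j by omega)
    rwa [show i + j - i = j by omega] at this
  have hle : M ^ 2 * ((i + j + 1) * (g1 * g2 * (i + j)!)) ≤
      M ^ 2 * ((i + j + 1) * ((G1 * a !) * (G2 * b !) * (i + j)!)) := by gcongr
  refine hle.trans_lt ?_
  have hpos : 0 < i ! * a ! * (j ! * b !) := by positivity
  calc M ^ 2 * ((i + j + 1) * ((G1 * a !) * (G2 * b !) * (i + j)!))
      = (M ^ 2 * ((i + j + 1) * (G1 * G2 * (i + j).choose i))) * (i ! * a ! * (j ! * b !)) := by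
        rw [← e3]; ring
    _ < (2 * (2 * M - 1) * (M.choose i * M.choose j)) * (i ! * a ! * (j ! * b !)) :=
        Nat.mul_lt_mul_of_pos_right H hpos
    _ = 2 * (2 * M - 1) * ((M.choose i * i ! * a !) * (M.choose j * j ! * b !)) := by ring
    _ = _ := by rw [e1, e2]; ring

theorem step_a {k : ℕ} (hk : 54 ≤ k) : (5 * k + 4) ^ 4 ≤ 5 ^ k := by
  induction k, hk using Nat.le_induction with
  | base => norm_num
  | succ k hk ih =>
    have h1 : (5 * (k + 1) + 4) * 54 ≤ 55 * (5 * k + 4) := by omega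
    have h2 : ((5 * (k + 1) + 4) * 54) ^ 4 ≤ (55 * (5 * k + 4)) ^ 4 := Nat.pow_le_pow_left h1 4
    rw [mul_pow, mul_pow] at h2
    have h3 : (5 * (k + 1) + 4) ^ 4 ≤ 5 * (5 * k + 4) ^ 4 := by
      have h4 : 55 ^ 4 * (5 * k + 4) ^ 4 ≤ (5 * 54 ^ 4) * (5 * k + 4) ^ 4 :=
        Nat.mul_le_mul_right _ (by norm_num)
      have h5 : (5 * (k + 1) + 4) ^ 4 * 54 ^ 4 ≤ (5 * (5 * k + 4) ^ 4) * 54 ^ 4 := by linarith
      exact Nat.le_of_mul_le_mul_right h5 (by norm_num)
    calc (5 * (k + 1) + 4) ^ 4 ≤ 5 * (5 * k + 4) ^ 4 := h3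
      _ ≤ 5 * 5 ^ k := Nat.mul_le_mul_left _ ih
      _ = 5 ^ (k + 1) := by ring

theorem step_b {k : ℕ} (hk : 350 ≤ k) : (5 * k + 10) ^ 17 * 27 ^ k ≤ 40 ^ k := by
  induction k, hk using Nat.le_induction with
  | base =>
    rw [show (350 : ℕ) = 175 * 2 by norm_num, pow_mul 27, pow_mul 40]
    norm_num
  | succ k hk ih =>
    have h1 : (5 * (k + 1) + 10) * 352 ≤ 353 * (5 * k + 10) := by omega
    have h2 : ((5 * (k + 1) + 10) * 352) ^ 17 ≤ (353 * (5 * k + 10)) ^ 17 := Nat.pow_le_pow_left h1 17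
    rw [mul_pow, mul_pow] at h2
    have h3 : (5 * (k + 1) + 10) ^ 17 * 27 ≤ 40 * (5 * k + 10) ^ 17 := by
      have h4 : (27 * 353 ^ 17) * (5 * k + 10) ^ 17 ≤ (40 * 352 ^ 17) * (5 * k + 10) ^ 17 :=
        Nat.mul_le_mul_right _ (by norm_num)
      have h5 : ((5 * (k + 1) + 10) ^ 17 * 27) * 352 ^ 17 ≤ (40 * (5 * k + 10) ^ 17) * 352 ^ 17 := by
        calc ((5 * (k + 1) + 10) ^ 17 * 27) * 352 ^ 17 = 27 * ((5 * (k + 1) + 10) ^ 17 * 352 ^ 17) := by ring
          _ ≤ 27 * (353 ^ 17 * (5 * k + 10) ^ 17) := Nat.mul_le_mul_left _ h2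
          _ = (27 * 353 ^ 17) * (5 * k + 10) ^ 17 := by ring
          _ ≤ _ := h4
          _ = _ := by ring
      exact Nat.le_of_mul_le_mul_right h5 (by positivity)
    calc (5 * (k + 1) + 10) ^ 17 * 27 ^ (k + 1) = ((5 * (k + 1) + 10) ^ 17 * 27) * 27 ^ k := by ring
      _ ≤ (40 * (5 * k + 10) ^ 17) * 27 ^ k := Nat.mul_le_mul_right _ h3
      _ = 40 * ((5 * k + 10) ^ 17 * 27 ^ k) := by ring
      _ ≤ 40 * 40 ^ k := Nat.mul_le_mul_left _ ih
      _ = _ := by ring

theorem desc_le {s M i : ℕ} (h : 2 * s + i ≤ 3 * M + 1) (hiM : i ≤ M) :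
    s.descFactorial i * 2 ^ i ≤ 3 ^ i * M.descFactorial i := by
  suffices H : ∀ t, t ≤ i → s.descFactorial t * 2 ^ t ≤ 3 ^ t * M.descFactorial t from H i le_rfl
  intro t
  induction t with
  | zero => intro _; simp
  | succ t ih =>
    intro ht
    have h1 := ih (by omega)
    have h2 : (s - t) * 2 ≤ 3 * (M - t) := by omega
    rw [Nat.descFactorial_succ, Nat.descFactorial_succ]
    calc (s - t) * s.descFactorial t * 2 ^ (t + 1) = ((s - t) * 2) * (s.descFactorial t * 2 ^ t) := by ring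
      _ ≤ (3 * (M - t)) * (3 ^ t * M.descFactorial t) := Nat.mul_le_mul h2 h1
      _ = _ := by ring

theorem choose_le_desc {s M i : ℕ} (h : 2 * s + i ≤ 3 * M + 1) (hiM : i ≤ M) :
    s.choose i * 2 ^ i ≤ 3 ^ i * M.choose i := by
  have h1 := desc_le h hiM
  rw [Nat.descFactorial_eq_factorial_mul_choose, Nat.descFactorial_eq_factorial_mul_choose] at h1
  have h2 : i ! * (s.choose i * 2 ^ i) ≤ i ! * (3 ^ i * M.choose i) := by
    calc i ! * (s.choose i * 2 ^ i) = i ! * s.choose i * 2 ^ i := by ring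
      _ ≤ 3 ^ i * (i ! * M.choose i) := h1
      _ = _ := by ring
  exact Nat.le_of_mul_le_mul_left h2 (Nat.factorial_pos i)

theorem fact7 (x : ℕ) : (x + 7)! ≤ (x + 7) ^ 7 * x ! := by
  have h : (x + 7)! = (x + 7) * ((x + 6) * ((x + 5) * ((x + 4) * ((x + 3) * ((x + 2) * ((x + 1) * x !)))))) := by
    rw [show x + 7 = x + 6 + 1 by ring, Nat.factorial_succ, show x + 6 = x + 5 + 1 by ring, Nat.factorial_succ,
      show x + 5 = x + 4 + 1 by ring, Nat.factorial_succ, show x + 4 = x + 3 + 1 by ring, Nat.factorial_succ,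
      show x + 3 = x + 2 + 1 by ring, Nat.factorial_succ, show x + 2 = x + 1 + 1 by ring, Nat.factorial_succ,
      Nat.factorial_succ]
  rw [h]
  calc (x + 7) * ((x + 6) * ((x + 5) * ((x + 4) * ((x + 3) * ((x + 2) * ((x + 1) * x !))))))
      ≤ (x + 7) * ((x + 7) * ((x + 7) * ((x + 7) * ((x + 7) * ((x + 7) * ((x + 7) * x !)))))) := by
        gcongr <;> norm_num
    _ = _ := by ring

theorem le_four {x S g : ℕ} (h : GB x S g) (hS : 4 * S ≤ 3 * (x + 1)) (hx : 3 ≤ x) : g ≤ 4 * x ! := by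
  have h1 := h.one (by omega)
  rw [Nat.factorial_succ] at h1
  have h2 : g * (x + 1) ≤ 4 * (g * (x + 1 - S)) := by
    have : x + 1 ≤ 4 * (x + 1 - S) := by omega
    calc g * (x + 1) ≤ g * (4 * (x + 1 - S)) := Nat.mul_le_mul_left _ this
      _ = _ := by ring
  have h3 : (x + 1) * g ≤ (x + 1) * (4 * x !) := by
    calc (x + 1) * g = g * (x + 1) := by ring
      _ ≤ 4 * (g * (x + 1 - S)) := h2
      _ ≤ 4 * ((x + 1) * x !) := Nat.mul_le_mul_left _ h1
      _ = _ := by ring
  exact Nat.le_of_mul_le_mul_left h3 (Nat.succ_pos x)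

theorem le_two {x S g : ℕ} (h : GB x S g) (hS : S ≤ 3) (hx : 6 ≤ x) : g ≤ 2 * x ! := by
  have h1 := h.one (by omega)
  rw [Nat.factorial_succ] at h1
  have h2 : g * (x + 1) ≤ 2 * (g * (x + 1 - S)) := by
    have : x + 1 ≤ 2 * (x + 1 - S) := by omega
    calc g * (x + 1) ≤ g * (2 * (x + 1 - S)) := Nat.mul_le_mul_left _ this
      _ = _ := by ring
  have h3 : (x + 1) * g ≤ (x + 1) * (2 * x !) := by
    calc (x + 1) * g = g * (x + 1) := by ring
      _ ≤ 2 * (g * (x + 1 - S)) := h2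
      _ ≤ 2 * ((x + 1) * x !) := Nat.mul_le_mul_left _ h1
      _ = _ := by ring
  exact Nat.le_of_mul_le_mul_left h3 (Nat.succ_pos x)

theorem le_succ {x S g : ℕ} (h : GB x S g) (hS : S ≤ x) : g ≤ (x + 1) * x ! := by
  have h1 := h.two hS
  rwa [Nat.factorial_succ] at h1

theorem le_seven {x S g : ℕ} (h : GB x S g) (hS : S ≤ 7 * x) : g ≤ (x + 7) ^ 7 * x ! := by
  have h1 := (h.seven hS).trans (fact7 x)
  have h2 : g ≤ g * 5040 := Nat.le_mul_of_pos_right _ (by norm_num)
  exact h2.trans h1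

theorem two_choose_three (M : ℕ) : M * (M - 1) * (M - 2) = 6 * M.choose 3 := by
  rw [← show Nat.factorial 3 = 6 from rfl, ← Nat.descFactorial_eq_factorial_mul_choose]
  simp [Nat.descFactorial]
  ring

theorem two_choose_two (M : ℕ) : M * (M - 1) = 2 * M.choose 2 := by
  have h := Nat.descFactorial_eq_factorial_mul_choose M 2
  rw [show Nat.factorial 2 = 2 from rfl] at h
  rw [← h]
  simp [Nat.descFactorial]
  ring

end SL

open SL

/-- **SIZE, low half.** -/
theorem size_low {M a b i j S g1 g2 : ℕ} (hM : 270 ≤ M) (ha : a + i = M) (hb : b + j = M)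
    (hi : 1 ≤ i) (hij : i ≤ j) (h5Y : 5 * (j - i) ≤ 2 * M) (h5s : 5 * (i + j) ≤ 6 * M)
    (hsS : i + j ≤ S) (hS : S ≤ i + j + 1) (hreg : i + j + 1 ≤ b ∨ 9999 ≤ M)
    (hg1 : GB a S g1) (hg2 : GB b S g2) :
    M ^ 2 * ((i + j + 1) * (g1 * g2 * (i + j)!)) < 2 * (2 * M - 1) * (M !) ^ 2 := by
  have hCi : 0 < M.choose i := Nat.choose_pos (by omega)
  have hCj : 0 < M.choose j := Nat.choose_pos (by omega)
  rcases Nat.lt_or_ge j 2 with hj2 | hj2
  · -- j = 1
    obtain rfl : j = 1 := by omega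
    obtain rfl : i = 1 := by omega
    refine reduce ha hb (le_two hg1 (by omega) (by omega)) (le_two hg2 (by omega) (by omega)) ?_
    have : M ^ 2 * ((1 + 1 + 1) * (2 * 2 * (1 + 1).choose 1)) = 24 * (M * M) := by
      simp [Nat.choose]; ring
    rw [this, Nat.choose_one_right]
    exact Nat.mul_lt_mul_of_pos_right (by omega) (by positivity)
  by_cases h4 : 4 * S ≤ 3 * (b + 1)
  · refine reduce ha hb (le_four hg1 (by omega) (by omega)) (le_four hg2 h4 (by omega)) ?_
    have hCs : (i + j).choose i ≤ M.choose i := Nat.choose_le_choose i (by omega)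
    have key : M ^ 2 * (16 * (i + j + 1)) < 2 * (2 * M - 1) * M.choose j := by
      rcases Nat.lt_or_ge j 3 with hj3 | hj3
      · obtain rfl : j = 2 := by omega
        have h5 := two_choose_two M
        have h6 : M ^ 2 * (16 * (i + 2 + 1)) ≤ M ^ 2 * 80 := Nat.mul_le_mul_left _ (by omega)
        refine h6.trans_lt ?_
        obtain ⟨m, rfl⟩ : ∃ m, M = m + 1 := ⟨M - 1, by omega⟩
        have h7 : 2 * (2 * (m + 1) - 1) * (m + 1).choose 2 = (2 * m + 1) * ((m + 1) * m) := by
          have : (m + 1) * m = 2 * (m + 1).choose 2 := by simpa using h5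
          rw [this, show 2 * (m + 1) - 1 = 2 * m + 1 by omega]; ring
        rw [h7]
        nlinarith
      · have h5 := two_choose_three M
        have h6 : M ^ 2 * (16 * (i + j + 1)) ≤ M ^ 2 * (16 * M) := by
          refine Nat.mul_le_mul_left _ (Nat.mul_le_mul_left _ (by omega))
        refine h6.trans_lt ?_
        have h8 : M.choose 3 ≤ M.choose j := choose_ge hj3 (by omega)
        refine lt_of_lt_of_le ?_ (Nat.mul_le_mul_left _ h8)
        obtain ⟨m, rfl⟩ : ∃ m, M = m + 2 := ⟨M - 2, by omega⟩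
        have h7 : (m + 2) * (m + 1) * m = 6 * (m + 2).choose 3 := by
          simpa using h5
        have h9 : 3 * ((m + 2) ^ 2 * (16 * (m + 2))) < 3 * (2 * (2 * (m + 2) - 1) * (m + 2).choose 3) := by
          have : 3 * (2 * (2 * (m + 2) - 1) * (m + 2).choose 3) = (2 * m + 3) * ((m + 2) * (m + 1) * m) := by
            rw [h7, show 2 * (m + 2) - 1 = 2 * m + 3 by omega]; ring
          rw [this]
          have hm : 268 ≤ m := by omega
          have e : 3 * ((m + 2) ^ 2 * (16 * (m + 2))) = (m + 2) * (48 * (m + 2) ^ 2) := by ring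
          have e' : (2 * m + 3) * ((m + 2) * (m + 1) * m) = (m + 2) * ((2 * m + 3) * (m + 1) * m) := by ring
          rw [e, e']
          refine Nat.mul_lt_mul_of_pos_left ?_ (by omega)
          have h10 : (m + 2) * (m + 2) ≤ (2 * m + 3) * (m + 1) := by nlinarith
          calc 48 * (m + 2) ^ 2 = ((m + 2) * (m + 2)) * 48 := by ring
            _ ≤ ((2 * m + 3) * (m + 1)) * 48 := Nat.mul_le_mul_right _ h10
            _ < ((2 * m + 3) * (m + 1)) * m := Nat.mul_lt_mul_of_pos_left (by omega) (by positivity)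
        exact Nat.lt_of_mul_lt_mul_left h9
    calc M ^ 2 * ((i + j + 1) * (4 * 4 * (i + j).choose i))
        = (M ^ 2 * (16 * (i + j + 1))) * (i + j).choose i := by ring
      _ ≤ (M ^ 2 * (16 * (i + j + 1))) * M.choose i := Nat.mul_le_mul_left _ hCs
      _ < (2 * (2 * M - 1) * M.choose j) * M.choose i := Nat.mul_lt_mul_of_pos_right key hCi
      _ = _ := by ring
  · push Not at h4
    set k := M / 5 with hk
    have hk1 : 5 * k ≤ M := Nat.mul_div_le M 5
    have hk2 : M ≤ 5 * k + 4 := by omega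
    have hkj : 5 ^ k ≤ M.choose j := by
      refine (five_pow_le k).trans ((Nat.choose_le_choose k hk1).trans ?_)
      exact choose_ge (by omega) (by omega)
    by_cases hSb : S ≤ b
    · refine reduce ha hb (le_succ hg1 (by omega)) (le_succ hg2 hSb) ?_
      have hCs : (i + j).choose i ≤ M.choose i := Nat.choose_le_choose i (by omega)
      have h54 : 54 ≤ k := by omega
      have h6 : M ^ 4 ≤ M.choose j :=
        (Nat.pow_le_pow_left hk2 4).trans ((step_a h54).trans hkj)
      have h7 : (i + j + 1) * ((a + 1) * (b + 1)) ≤ M * (M * M) :=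
        Nat.mul_le_mul (by omega) (Nat.mul_le_mul (by omega) (by omega))
      calc M ^ 2 * ((i + j + 1) * ((a + 1) * (b + 1) * (i + j).choose i))
          = (M ^ 2 * ((i + j + 1) * ((a + 1) * (b + 1)))) * (i + j).choose i := by ring
        _ ≤ (M ^ 2 * (M * (M * M))) * M.choose i := Nat.mul_le_mul (Nat.mul_le_mul_left _ h7) hCs
        _ = (M * M ^ 4) * M.choose i := by ring
        _ ≤ (M * M.choose j) * M.choose i := Nat.mul_le_mul_right _ (Nat.mul_le_mul_left _ h6)
        _ = M * (M.choose i * M.choose j) := by ring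
        _ < 2 * (2 * M - 1) * (M.choose i * M.choose j) :=
            Nat.mul_lt_mul_of_pos_right (by omega) (by positivity)
    · have hM9 : 9999 ≤ M := by omega
      have hk350 : 350 ≤ k := by omega
      refine reduce ha hb (le_seven hg1 (by omega)) (le_seven hg2 (by omega)) ?_
      have hCs := choose_le_desc (s := i + j) (M := M) (i := i) (by omega) (by omega)
      have hi3 : i ≤ 3 * k + 2 := by omega
      -- multiply by `2 ^ (3k+2)`
      have h2i : 3 ^ i * 2 ^ (3 * k + 2) ≤ 3 ^ (3 * k + 2) * 2 ^ i := by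
        obtain ⟨c, hc⟩ := Nat.exists_eq_add_of_le hi3
        rw [hc, pow_add, pow_add]
        have : 2 ^ c ≤ 3 ^ c := Nat.pow_le_pow_left (by norm_num) c
        calc 3 ^ i * (2 ^ i * 2 ^ c) = (3 ^ i * 2 ^ i) * 2 ^ c := by ring
          _ ≤ (3 ^ i * 2 ^ i) * 3 ^ c := Nat.mul_le_mul_left _ this
          _ = _ := by ring
      have hC2 : (i + j).choose i * 2 ^ (3 * k + 2) ≤ 3 ^ (3 * k + 2) * M.choose i := by
        have hp : 0 < 2 ^ i := by positivity
        refine Nat.le_of_mul_le_mul_right (c := 2 ^ i) ?_ hp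
        calc (i + j).choose i * 2 ^ (3 * k + 2) * 2 ^ i = ((i + j).choose i * 2 ^ i) * 2 ^ (3 * k + 2) := by ring
          _ ≤ (3 ^ i * M.choose i) * 2 ^ (3 * k + 2) := Nat.mul_le_mul_right _ hCs
          _ = (3 ^ i * 2 ^ (3 * k + 2)) * M.choose i := by ring
          _ ≤ (3 ^ (3 * k + 2) * 2 ^ i) * M.choose i := Nat.mul_le_mul_right _ h2i
          _ = _ := by ring
      have h17 := step_b hk350
      have hA : (a + 7) ^ 7 ≤ (5 * k + 10) ^ 7 := Nat.pow_le_pow_left (by omega) 7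
      have hB : (b + 7) ^ 7 ≤ (5 * k + 10) ^ 7 := Nat.pow_le_pow_left (by omega) 7
      have hMM : M ^ 2 ≤ (5 * k + 10) ^ 2 := Nat.pow_le_pow_left (by omega) 2
      have hs : i + j + 1 ≤ 2 * (5 * k + 10) := by omega
      have hp2 : 0 < 2 ^ (3 * k + 2) := by positivity
      refine Nat.lt_of_mul_lt_mul_right (a := 2 ^ (3 * k + 2)) ?_
      have e1 : (3 : ℕ) ^ (3 * k + 2) = 9 * 27 ^ k := by
        rw [pow_add, pow_mul]; norm_num [mul_comm]
      have e2 : (2 : ℕ) ^ (3 * k + 2) = 4 * 8 ^ k := by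
        rw [pow_add, pow_mul]; norm_num [mul_comm]
      have e3 : (40 : ℕ) ^ k = 8 ^ k * 5 ^ k := by
        rw [← mul_pow]; norm_num
      calc M ^ 2 * ((i + j + 1) * ((a + 7) ^ 7 * (b + 7) ^ 7 * (i + j).choose i)) * 2 ^ (3 * k + 2)
          = (M ^ 2 * (i + j + 1) * ((a + 7) ^ 7 * (b + 7) ^ 7)) * ((i + j).choose i * 2 ^ (3 * k + 2)) := by
            ring
        _ ≤ ((5 * k + 10) ^ 2 * (2 * (5 * k + 10)) * ((5 * k + 10) ^ 7 * (5 * k + 10) ^ 7)) *
            (3 ^ (3 * k + 2) * M.choose i) := by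
            refine Nat.mul_le_mul (Nat.mul_le_mul (Nat.mul_le_mul hMM hs) (Nat.mul_le_mul hA hB)) hC2
        _ = 18 * ((5 * k + 10) ^ 17 * 27 ^ k) * M.choose i := by rw [e1]; ring
        _ ≤ 18 * 40 ^ k * M.choose i := Nat.mul_le_mul_right _ (Nat.mul_le_mul_left _ h17)
        _ = (18 * 8 ^ k * M.choose i) * 5 ^ k := by rw [e3]; ring
        _ ≤ (18 * 8 ^ k * M.choose i) * M.choose j := Nat.mul_le_mul_left _ hkj
        _ = 18 * (8 ^ k * (M.choose i * M.choose j)) := by ring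
        _ < (8 * (2 * M - 1)) * (8 ^ k * (M.choose i * M.choose j)) :=
            Nat.mul_lt_mul_of_pos_right (by omega) (by positivity)
        _ = _ := by rw [e2]; ring

end Cfsg.Agent.H117.O1
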